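import Cfsg.Agent.TwoGenSolv82.Basic

/-!
A subgroup of a Sylow subgroup which is strongly closed and whose conjugates always lie in
`O_{p',p}` of a solvable subgroup containing them is trivial or the whole Sylow subgroup, when
every two elements of the simple group generate a solvable subgroup.

* `ZType`, `ClosedData`;
* `eq_sylow_of_closedData`.
-/

set_option autoImplicit false

namespace CfsgLib.TwoGenSolv82

open Cfsg CfsgLib

universe u

variable {G : Type u} [Group G] {p : ℕ}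

/-- The conjugates of the elements of `Z`. -/
def ZType (Z : Subgroup G) (c : G) : Prop := ∃ g : G, g * c * g⁻¹ ∈ Z

theorem ZType.conj {Z : Subgroup G} {c : G} (h : ZType Z c) (a : G) : ZType Z (a * c * a⁻¹) := by
  obtain ⟨g, hg⟩ := h
  refine ⟨g * a⁻¹, ?_⟩
  rwa [show g * a⁻¹ * (a * c * a⁻¹) * (g * a⁻¹)⁻¹ = g * c * g⁻¹ by group]

theorem zType_of_mem {Z : Subgroup G} {c : G} (h : c ∈ Z) : ZType Z c := ⟨1, by simpa using h⟩

theorem zType_one (Z : Subgroup G) : ZType Z 1 := zType_of_mem Z.one_mem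

/-- Strong closure in a Sylow subgroup, and membership in `O_{p',p}` of solvable subgroups. -/
structure ClosedData (S : Sylow p G) (Z : Subgroup G) : Prop where
  le : Z ≤ (S : Subgroup G)
  strong : ∀ z ∈ Z, ∀ g : G, g * z * g⁻¹ ∈ (S : Subgroup G) → g * z * g⁻¹ ∈ Z
  stable : ∀ H : Subgroup G, Group.IsSolvable H → ∀ c : H, ZType Z (c : G) →
    (c : H ⧸ pPrimeCore p H) ∈ pCore p (H ⧸ pPrimeCore p H)

/-- The image of the part of order a power of `p`. -/
theorem isPPart_map [hp : Fact p.Prime] {A B : Type*} [Group A] [Group B] (f : A →* B) {g w : A}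
    (h : IsPPart p g w) : IsPPart p (f g) (f w) := by
  obtain ⟨s, rfl, hc, ⟨k, hk⟩, hs⟩ := h
  refine ⟨f s, (map_mul f w s).symm, hc.map f, ?_, fun hd => hs (hd.trans (orderOf_map_dvd f s))⟩
  obtain ⟨e, -, he⟩ := (Nat.dvd_prime_pow hp.out).1 (hk ▸ orderOf_map_dvd f w)
  exact ⟨e, he⟩

variable [Finite G] [hp : Fact p.Prime]

theorem orderOf_eq_pow_of_zType {S : Sylow p G} {Z : Subgroup G} (hcl : ClosedData S Z) {c : G}
    (hc : ZType Z c) : ∃ k : ℕ, orderOf c = p ^ k := by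
  obtain ⟨g, hg⟩ := hc
  obtain ⟨k, hk⟩ := orderOf_eq_pow_of_mem S.2 (hcl.le hg)
  exact ⟨k, by rw [← hk, ← orderOf_injective (MulAut.conj g).toMonoidHom (MulAut.conj g).injective c]; rfl⟩

/-- Multiplying by an element of type `Z` keeps the set of elements whose `p`-part is not of
type `Z`. -/
theorem not_zType_pPart_mul
    (hpairs : ∀ a b : G, Group.IsSolvable (Subgroup.closure ({a, b} : Set G)))
    {S : Sylow p G} {Z : Subgroup G} (hcl : ClosedData S Z) {c g : G} (hc : ZType Z c)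
    (hg : ∀ w, IsPPart p g w → ¬ ZType Z w) : ∀ w, IsPPart p (c * g) w → ¬ ZType Z w := by
  intro w₀ hw₀ hwZ₀
  set L := Subgroup.closure ({c, g} : Set G) with hL
  set c' : L := ⟨c, Subgroup.subset_closure (Set.mem_insert _ _)⟩ with hc'
  set g' : L := ⟨g, Subgroup.subset_closure (Set.mem_insert_of_mem _ rfl)⟩ with hg'
  obtain ⟨v, hv⟩ := Blocks.exists_isPPart (G := L) hp.out g'
  obtain ⟨w, hw⟩ := Blocks.exists_isPPart (G := L) hp.out (c' * g')
  have hvG : IsPPart p g (v : G) := isPPart_map L.subtype hv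
  have hwG : IsPPart p (c * g) (w : G) := isPPart_map L.subtype hw
  have hwZ : ZType Z (w : G) := Blocks.isPPart_unique hp.out hw₀ hwG ▸ hwZ₀
  set N := pPrimeCore p L with hN
  have hNd : ¬ p ∣ Nat.card N := Constrained.pPrimeCore_not_dvd
  set π := QuotientGroup.mk' N with hπ
  set R : Sylow p L := default
  obtain ⟨Q, hQ⟩ := ((R.2).map L.subtype).exists_le_sylow
  obtain ⟨h, hh⟩ := MulAction.exists_smul_eq G Q S
  have hR : ∀ r ∈ (R : Subgroup L), h * (r : G) * h⁻¹ ∈ (S : Subgroup G) := by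
    intro r hr
    rw [← hh, Sylow.smul_def]
    exact ⟨(r : G), hQ ⟨r, hr, rfl⟩, rfl⟩
  set T : Subgroup L := (R : Subgroup L) ⊓
    Z.comap ((MulAut.conj h).toMonoidHom.comp L.subtype) with hT
  have hTZ : ∀ t ∈ T, ZType Z (t : G) := fun t ht => ⟨h, ht.2⟩
  have hZT : ∀ r ∈ (R : Subgroup L), ZType Z (r : G) → r ∈ T := by
    rintro r hr ⟨a, ha⟩
    refine ⟨hr, ?_⟩
    have h1 := hcl.strong _ ha (h * a⁻¹) (by
      rw [show h * a⁻¹ * (a * (r : G) * a⁻¹) * (h * a⁻¹)⁻¹ = h * (r : G) * h⁻¹ by group]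
      exact hR r hr)
    rwa [show h * a⁻¹ * (a * (r : G) * a⁻¹) * (h * a⁻¹)⁻¹ = h * (r : G) * h⁻¹ by group] at h1
  have hpow : ∀ x : L, ZType Z (x : G) → ∃ k, orderOf x = p ^ k := fun x hx => by
    obtain ⟨k, hk⟩ := orderOf_eq_pow_of_zType hcl hx
    exact ⟨k, by rw [← hk, Subgroup.orderOf_coe]⟩
  set A := T.map π with hA
  have himg : ∀ x : L, ZType Z (x : G) → π x ∈ A := by
    intro x hx
    have hcore : π x ∈ pCore p (L ⧸ N) := hcl.stable L (hpairs c g) x hx
    obtain ⟨r, hr, hre⟩ := Constrained.isPGroup_pCore.le_sylow_of_normal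
      (R.mapSurjective (f := π) (QuotientGroup.mk'_surjective N)) hcore
    obtain ⟨i, hi⟩ := orderOf_eq_pow_of_mem R.2 hr
    obtain ⟨j, hj⟩ := hpow x hx
    obtain ⟨l, hl⟩ := isConj_of_mk_eq hNd hj hi (by exact hre.symm)
    refine ⟨r, hZT r hr ?_, hre⟩
    rw [← hl]
    exact hx.conj _
  haveI hAn : A.Normal := by
    refine ⟨fun a ha b => ?_⟩
    obtain ⟨t, ht, rfl⟩ := ha
    obtain ⟨l, rfl⟩ := QuotientGroup.mk'_surjective N b
    rw [← map_inv, ← map_mul, ← map_mul]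
    exact himg _ ((hTZ t ht).conj l)
  set φ := (QuotientGroup.mk' A).comp π with hφ
  have hφc : φ c' = 1 := (QuotientGroup.eq_one_iff _).2 (himg c' hc)
  have hvw : φ v = φ w := by
    have h1 := isPPart_map φ hw
    rw [map_mul, hφc, one_mul] at h1
    exact Blocks.isPPart_unique hp.out (isPPart_map φ hv) h1
  have hwA : φ w = 1 := (QuotientGroup.eq_one_iff _).2 (himg w hwZ)
  obtain ⟨t, ht, hte⟩ := (QuotientGroup.eq_one_iff _).1 (hvw.trans hwA)
  obtain ⟨i, hi⟩ := hpow t (hTZ t ht)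
  obtain ⟨j, hj⟩ : ∃ j, orderOf v = p ^ j := by
    obtain ⟨-, -, -, h1, -⟩ := hv
    exact h1
  obtain ⟨l, hl⟩ := isConj_of_mk_eq hNd hi hj hte
  refine hg _ hvG ?_
  rw [← hl]
  exact (hTZ t ht).conj _

/-- A nontrivial closed subgroup is the whole Sylow subgroup. -/
theorem eq_sylow_of_closedData [IsSimpleGroup G]
    (hpairs : ∀ a b : G, Group.IsSolvable (Subgroup.closure ({a, b} : Set G)))
    {S : Sylow p G} {Z : Subgroup G} (hcl : ClosedData S Z) (hne : Z ≠ ⊥) :
    Z = (S : Subgroup G) := by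
  by_contra hZS
  obtain ⟨y, hyS, hyZ⟩ := SetLike.exists_of_lt (lt_of_le_of_ne hcl.le hZS)
  obtain ⟨x, hxZ, hx1⟩ := Z.bot_or_exists_ne_one.resolve_left hne
  let Y : Set G := {g | ∀ w, IsPPart p g w → ¬ ZType Z w}
  have hyY : y ∈ Y := by
    intro w hw hwZ
    obtain ⟨k, hk⟩ := orderOf_eq_pow_of_mem S.2 hyS
    rw [Blocks.isPPart_unique hp.out hw (isPPart_of_pow hk)] at hwZ
    obtain ⟨g, hg⟩ := hwZ
    refine hyZ ?_
    have := hcl.strong _ hg g⁻¹ (by simpa [mul_assoc] using hyS)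
    simpa [mul_assoc] using this
  have hnc : Subgroup.normalClosure ({x} : Set G) = ⊤ :=
    (Subgroup.normalClosure_normal.eq_bot_or_eq_top).resolve_left fun hb => hx1
      (Subgroup.mem_bot.1 (hb ▸ Subgroup.subset_normalClosure rfl))
  have hclo : ∀ m : G, ∀ g ∈ Y, m * g ∈ Y := by
    have hpow : ∀ {m : G}, (∀ g ∈ Y, m * g ∈ Y) → ∀ n : ℕ, ∀ g ∈ Y, m ^ n * g ∈ Y := by
      intro m hm n
      induction n with
      | zero => simp
      | succ n ih => intro g hg; rw [pow_succ', mul_assoc]; exact hm _ (ih g hg)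
    intro m
    have hm : m ∈ Subgroup.normalClosure ({x} : Set G) := hnc ▸ Subgroup.mem_top m
    refine Subgroup.closure_induction (p := fun m _ => ∀ g ∈ Y, m * g ∈ Y)
      (fun b hb => ?_) (by simp) (fun a b _ _ ha hb g hg => ?_) (fun a _ ha g hg => ?_) hm
    · obtain ⟨a, ha, hab⟩ := Group.mem_conjugatesOfSet_iff.1 hb
      rw [Set.mem_singleton_iff] at ha
      subst ha
      obtain ⟨e, rfl⟩ := isConj_iff.1 hab
      exact fun g hg => not_zType_pPart_mul hpairs hcl ((zType_of_mem hxZ).conj e) hg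
    · rw [mul_assoc]; exact ha _ (hb g hg)
    · rw [inv_eq_of_mul_eq_one_right (show a * a ^ (orderOf a - 1) = 1 by
        rw [← pow_succ', Nat.sub_add_cancel (orderOf_pos a), pow_orderOf_eq_one])]
      exact hpow ha _ g hg
  have h1 := hclo y⁻¹ y hyY
  rw [inv_mul_cancel] at h1
  exact h1 1 ⟨1, mul_one _, Commute.one_right _, ⟨0, by simp⟩, by simpa using hp.out.ne_one⟩
    (zType_one Z)

end CfsgLib.TwoGenSolv82
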