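import Cfsg.Agent.ConjFunctor.CyclicPairs.Main
import Cfsg.Agent.Huppert.Cases

/-!
# Two bounds for an abelian Sylow subgroup with a large automiser

* `relIndex_centralizer_le`: a solvable automiser transitive on the non-identity elements of an
  elementary abelian noncyclic Sylow subgroup has point stabilisers of order at most `|P|`;
* `card_autP_le_charDegree`: a fixed point free automiser bounds the non-trivial degrees below.
-/

set_option autoImplicit false
set_option linter.style.haveILetI false

open Cfsg CfsgLib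
open CfsgLib.Blocks CfsgLib.Blocks.AbelianFrobenius

namespace CfsgLib.TwoGenSolv82

universe u

section Aut

variable {P : Type u} [CommGroup P] {p : ℕ} [Fact p.Prime]

/-- An automorphism group of an elementary abelian group as a linear group. -/
noncomputable def linearOfAut (A : Subgroup (MulAut P)) [Module (ZMod p) (Additive P)] :
    A →* (Additive P ≃ₗ[ZMod p] Additive P) where
  toFun a :=
    { (a : MulAut P).toAdditive with
      map_smul' := fun c v => ZMod.map_smul (a : MulAut P).toAdditive.toAddMonoidHom c v }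
  map_one' := LinearEquiv.ext fun _ => rfl
  map_mul' _ _ := LinearEquiv.ext fun _ => rfl

/-- The stabiliser of a non-identity element in a solvable transitive automorphism group is small. -/
theorem card_stab_le [Finite P] (hp5 : 5 ≤ p) (hexp : ∀ x : P, x ^ p = 1) (hnc : ¬ IsCyclic P)
    (A : Subgroup (MulAut P)) (hsol : Group.IsSolvable A)
    (htr : ∀ x y : P, x ≠ 1 → y ≠ 1 → ∃ a ∈ A, (a : MulAut P) x = y) {z : P} (hz : z ≠ 1)
    (S : Subgroup (MulAut P)) (hSA : S ≤ A) (hSz : ∀ a ∈ S, (a : MulAut P) z = z) :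
    Nat.card S ≤ Nat.card P := by
  have hsmul : ∀ v : Additive P, p • v = 0 := fun v =>
    Additive.toMul.injective (hexp v.toMul)
  letI : Module (ZMod p) (Additive P) := AddCommGroup.zmodModule (n := p) hsmul
  haveI : Finite A := Finite.of_injective (fun a : A => ⇑(a : MulAut P)) fun a b h =>
    Subtype.ext (MulEquiv.ext (congrFun h))
  haveI : Nontrivial (Additive P) := ⟨⟨Additive.ofMul z, 0, fun h => hz (congrArg Additive.toMul h)⟩⟩
  suffices hw : ∃ w : P, Function.Injective fun a : S => (a : MulAut P) w by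
    obtain ⟨w, hw⟩ := hw
    exact Nat.card_le_card_of_injective _ hw
  have hρ : Function.Injective (linearOfAut (p := p) A : A → Additive P ≃ₗ[ZMod p] Additive P) := fun a b h =>
    Subtype.ext (MulEquiv.ext fun v =>
      congrArg Additive.toMul (LinearEquiv.congr_fun h (Additive.ofMul v)))
  set ρ : A →* (Additive P ≃ₗ[ZMod p] Additive P) := linearOfAut A with hρdef
  set L : Subgroup (Additive P ≃ₗ[ZMod p] Additive P) := ρ.range
  rcases CfsgLib.Huppert.semilinear_or_exceptional (q := p) (V := Additive P) (H := L) (fun v w hv hw => by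
        obtain ⟨a, ha, hav⟩ := htr v.toMul w.toMul (fun e => hv (Additive.toMul.injective e))
          (fun e => hw (Additive.toMul.injective e))
        exact ⟨⟨_, ⟨⟨a, ha⟩, rfl⟩⟩, Additive.toMul.injective hav⟩)
      (Group.isSolvable_of_surjective (f := ρ.rangeRestrict) ρ.rangeRestrict_surjective) with
    ⟨F, iF, iFF, e, hsl⟩ | hex
  · -- semilinear
    letI := iF
    letI := iFF
    have hu : e (Additive.ofMul z) ≠ 0 := fun h =>
      hz (congrArg Additive.toMul (e.injective (h.trans (map_zero e).symm)))
    obtain ⟨g, hg⟩ := IsCyclic.exists_generator (α := Fˣ)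
    refine ⟨(e.symm ((g : F) * e (Additive.ofMul z))).toMul, fun a b hab => ?_⟩
    have key : ∀ a : S, ∃ σ : F ≃+* F,
        (∀ v : Additive P, e (Additive.ofMul ((a : MulAut P) v.toMul)) =
          e (Additive.ofMul z) / σ (e (Additive.ofMul z)) * σ (e v)) ∧
        e (Additive.ofMul ((a : MulAut P) (e.symm ((g : F) * e (Additive.ofMul z))).toMul)) =
          σ g * e (Additive.ofMul z) := by
      intro a
      obtain ⟨c, σ, hσ⟩ := hsl ⟨_, ⟨⟨a, hSA a.2⟩, rfl⟩⟩
      have hval : ∀ v : Additive P,
          e (Additive.ofMul ((a : MulAut P) v.toMul)) = c * σ (e v) := hσ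
      have hz' : e (Additive.ofMul z) = c * σ (e (Additive.ofMul z)) := by
        rw [← hval, show (Additive.ofMul z).toMul = z from rfl, hSz _ a.2]
      have hσu : σ (e (Additive.ofMul z)) ≠ 0 := fun h => hu (σ.injective (h.trans (map_zero σ).symm))
      refine ⟨σ, fun v => ?_, ?_⟩
      · rw [hval, eq_div_iff hσu |>.mpr hz'.symm]
      · rw [hval, e.apply_symm_apply, map_mul]
        calc c * (σ g * σ (e (Additive.ofMul z))) = σ g * (c * σ (e (Additive.ofMul z))) := by ring
          _ = σ g * e (Additive.ofMul z) := by rw [← hz']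
    obtain ⟨σ, ha, haw⟩ := key a
    obtain ⟨τ, hb, hbw⟩ := key b
    have hgen : σ g = τ g := by
      refine mul_right_cancel₀ hu ?_
      rw [← haw, ← hbw]
      exact congrArg (fun x => e (Additive.ofMul x)) hab
    have hστ : ∀ t : F, σ t = τ t := by
      intro t
      rcases eq_or_ne t 0 with rfl | ht
      · rw [map_zero, map_zero]
      obtain ⟨k, hk⟩ := Subgroup.mem_zpowers_iff.mp (hg (Units.mk0 t ht))
      have ht' : t = (g : F) ^ k := by
        rw [← Units.val_zpow_eq_zpow_val, hk, Units.val_mk0]
      rw [ht', map_zpow₀, map_zpow₀, hgen]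
    refine Subtype.ext (MulEquiv.ext fun v => ?_)
    refine Additive.ofMul.injective (e.injective ?_)
    show e (Additive.ofMul ((a : MulAut P) (Additive.ofMul v).toMul)) =
      e (Additive.ofMul ((b : MulAut P) (Additive.ofMul v).toMul))
    rw [ha, hb, hστ, hστ]
  · -- exceptional orders: `|P| = p²`
    have hcard : Nat.card P = p ^ 2 := by
      have he : Nat.card (Additive P) = Nat.card P := Nat.card_congr Additive.toMul
      rw [he] at hex
      have hpd : p ∣ Nat.card P := orderOf_eq_prime (hexp z) hz ▸ orderOf_dvd_natCard z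
      have hpp : p.Prime := Fact.out
      simp only [Set.mem_insert_iff, Set.mem_singleton_iff] at hex
      have aux : ∀ r k : ℕ, r.Prime → p ∣ r ^ k → p = r := fun r k hr h =>
        (Nat.prime_dvd_prime_iff_eq hpp hr).1 (hpp.dvd_of_dvd_pow h)
      rcases hex with h | h | h | h | h | h <;> rw [h] at hpd ⊢
      · have := aux 3 2 Nat.prime_three (by simpa using hpd); omega
      · rw [aux 5 2 Nat.prime_five (by simpa using hpd)]; norm_num
      · rw [aux 7 2 (by norm_num) (by simpa using hpd)]; norm_num
      · rw [aux 11 2 (by norm_num) (by simpa using hpd)]; norm_num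
      · rw [aux 23 2 (by norm_num) (by simpa using hpd)]; norm_num
      · have := aux 3 4 Nat.prime_three (by simpa using hpd); omega
    obtain ⟨w, hw⟩ : ∃ w : P, w ∉ Subgroup.zpowers z := by
      by_contra hcon
      push Not at hcon
      exact hnc ⟨⟨z, hcon⟩⟩
    set K := Subgroup.zpowers z ⊔ Subgroup.zpowers w
    have hKtop : K = ⊤ := by
      obtain ⟨j, hj, hjc⟩ := (Nat.dvd_prime_pow (Fact.out : p.Prime)).mp
        (hcard ▸ Subgroup.card_subgroup_dvd_card K)
      have hlt : Subgroup.zpowers z < K := lt_of_le_of_ne le_sup_left fun h =>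
        hw (h ▸ Subgroup.mem_sup_right (Subgroup.mem_zpowers w))
      have h1 : p < Nat.card K := by
        calc p = Nat.card (Subgroup.zpowers z) := by
              rw [Nat.card_zpowers, orderOf_eq_prime (hexp z) hz]
          _ < Nat.card K := lt_of_le_of_ne (Subgroup.card_le_of_le hlt.le) fun h =>
              hlt.ne (Subgroup.eq_of_le_of_card_ge hlt.le h.ge)
      have hj2 : j = 2 := by
        by_contra hne
        have : p ^ j ≤ p ^ 1 := Nat.pow_le_pow_right (Fact.out : p.Prime).pos (by omega)
        rw [pow_one] at this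
        omega
      exact Subgroup.eq_top_of_card_eq K (by rw [hjc, hj2, hcard])
    refine ⟨w, fun a b hab => Subtype.ext (MulEquiv.ext fun v => ?_)⟩
    have hle : K ≤ MonoidHom.eqLocus (a : MulAut P).toMonoidHom (b : MulAut P).toMonoidHom :=
      sup_le (Subgroup.zpowers_le.mpr ((hSz _ a.2).trans (hSz _ b.2).symm))
        (Subgroup.zpowers_le.mpr hab)
    exact hle (hKtop.symm ▸ Subgroup.mem_top v)

end Aut

open CfsgLib.ConjFunctor.CyclicPairs

variable {G : Type u} [Group G] [Fintype G] {p : ℕ} [Fact p.Prime] (P : Sylow p G)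
  [IsMulCommutative (P : Subgroup G)]

theorem relIndex_centralizer_le (hp5 : 5 ≤ p) (hexp : ∀ x ∈ (P : Subgroup G), x ^ p = 1)
    (hnc : ¬ IsCyclic (P : Subgroup G))
    (hsol : Group.IsSolvable (Subgroup.normalizer ((P : Subgroup G) : Set G)))
    (htr : ∀ x ∈ (P : Subgroup G), ∀ y ∈ (P : Subgroup G), x ≠ 1 → y ≠ 1 → IsConj x y) {z : G}
    (hzP : z ∈ (P : Subgroup G)) (hz : z ≠ 1) :
    (Subgroup.centralizer ((P : Subgroup G) : Set G)).relIndex
      (Subgroup.centralizer ({z} : Set G) ⊓ Subgroup.normalizer ((P : Subgroup G) : Set G)) ≤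
        Nat.card (P : Subgroup G) := by
  letI : CommGroup (P : Subgroup G) :=
    { (inferInstance : Group (P : Subgroup G)) with
      mul_comm := fun a b => IsMulCommutative.is_comm.comm a b }
  set T := Subgroup.centralizer ({z} : Set G) ⊓ Subgroup.normalizer ((P : Subgroup G) : Set G)
  set ν : T →* MulAut (P : Subgroup G) :=
    ((P : Subgroup G).normalizerMonoidHom).comp (Subgroup.inclusion inf_le_right) with hν
  have hker : ν.ker = (Subgroup.centralizer ((P : Subgroup G) : Set G)).subgroupOf T := by
    rw [hν, ← MonoidHom.comap_ker, Subgroup.normalizerMonoidHom_ker]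
    rfl
  rw [Subgroup.relIndex, ← hker, Subgroup.index_ker]
  refine card_stab_le hp5 (fun x => Subtype.ext (hexp x x.2)) hnc (autP P)
    (Group.isSolvable_of_surjective (f := (P : Subgroup G).normalizerMonoidHom.rangeRestrict)
      (P : Subgroup G).normalizerMonoidHom.rangeRestrict_surjective) (fun x y hx hy => ?_)
    (z := ⟨z, hzP⟩) (fun h => hz (congrArg Subtype.val h)) ν.range
    (by rintro _ ⟨t, rfl⟩; exact ⟨_, rfl⟩) ?_
  · obtain ⟨a, ha⟩ := exists_aut_of_isConj (htr x x.2 y y.2 (fun h => hx (Subtype.ext h))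
      (fun h => hy (Subtype.ext h)))
    exact ⟨a, a.2, ha⟩
  · rintro _ ⟨t, rfl⟩
    refine Subtype.ext ?_
    show (t : G) * z * (t : G)⁻¹ = z
    rw [Subgroup.mem_centralizer_singleton_iff.mp (Subgroup.mem_inf.mp t.2).1, mul_inv_cancel_right]

/-- Fixed point free automisers bound the degrees of non-trivial characters from below. -/
theorem card_autP_le_charDegree [IsSimpleGroup G] [Nontrivial (P : Subgroup G)] (hfrob : Frob P)
    {χ : IrrCharacter G} (hχ : χ ≠ Chars.oneChar G) :
    Nat.card (autP P) ≤ charDegree (χ : G → ℂ) := by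
  classical
  letI : CommGroup (P : Subgroup G) :=
    { (inferInstance : Group (P : Subgroup G)) with
      mul_comm := fun a b => IsMulCommutative.is_comm.comm a b }
  letI := Fintype.ofFinite (P : Subgroup G)
  letI := Fintype.ofFinite ((P : Subgroup G) →* ℂˣ)
  haveI : Finite (MulAut (P : Subgroup G)) := Finite.of_injective _ DFunLike.coe_injective
  letI := Fintype.ofFinite (autP P)
  obtain ⟨c, hc⟩ := exists_natMult (P := P) χ
  have hq : (Fintype.card (P : Subgroup G) : ℂ) ≠ 0 := Nat.cast_ne_zero.2 Fintype.card_ne_zero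
  -- inversion
  have hinv : ∀ y : (P : Subgroup G),
      ∑ ψ : (P : Subgroup G) →* ℂˣ, (c ψ : ℂ) * (ψ y : ℂ) = (χ : G → ℂ) y := by
    intro y
    refine mul_left_cancel₀ hq ?_
    rw [Finset.mul_sum]
    simp only [← mul_assoc, hc, Finset.sum_mul]
    rw [Finset.sum_comm, Finset.sum_eq_single y]
    · rw [mul_comm (Fintype.card (P : Subgroup G) : ℂ)]
      simp only [mul_assoc, ← Units.val_mul, ← map_mul, inv_mul_cancel, map_one, Units.val_one,
        mul_one, Finset.sum_const, Finset.card_univ, nsmul_eq_mul]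
      rw [← Nat.card_eq_fintype_card, ← Nat.card_eq_fintype_card,
        CommGroup.card_monoidHom_of_hasEnoughRootsOfUnity (P : Subgroup G) ℂ]
      ring
    · intro x _ hxy
      simp only [mul_assoc, ← Units.val_mul, ← map_mul]
      rw [← Finset.mul_sum, sum_linChar_eq, if_neg (fun h => hxy ?_), mul_zero]
      calc x = x * (x⁻¹ * y) := by rw [h, mul_one]
        _ = y := mul_inv_cancel_left x y
    · simp
  obtain ⟨ψ, hψ1, hψ⟩ : ∃ ψ : (P : Subgroup G) →* ℂˣ, ψ ≠ 1 ∧ 0 < c ψ := by
    by_contra hcon
    push Not at hcon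
    obtain ⟨y, hy⟩ := exists_ne (1 : (P : Subgroup G))
    refine apply_ne_map_one hχ (g := (y : G)) (fun h => hy (Subtype.ext h)) ?_
    have key : ∀ t : (P : Subgroup G), (χ : G → ℂ) t = (c 1 : ℂ) := by
      intro t
      rw [← hinv t, Finset.sum_eq_single 1]
      · simp
      · intro φ _ hφ
        rw [Nat.le_zero.mp (hcon φ hφ), Nat.cast_zero, zero_mul]
      · simp
    exact (key y).trans (by simpa using (key 1).symm)
  have hdeg : ∑ φ, c φ = charDegree (χ : G → ℂ) := by
    have h := hinv 1
    simp only [map_one, Units.val_one, mul_one, Subgroup.coe_one, ← Chars.coe_charDegree] at h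
    exact_mod_cast h
  have hinvar : ∀ a : autP P, ∀ φ, c (twist (a : MulAut (P : Subgroup G)) φ) = c φ := by
    intro a φ
    have : (Fintype.card (P : Subgroup G) : ℂ) * (c (twist (a : MulAut (P : Subgroup G)) φ) : ℂ) =
        (Fintype.card (P : Subgroup G) : ℂ) * (c φ : ℂ) := by
      rw [hc, hc]
      refine Fintype.sum_equiv (a : MulAut (P : Subgroup G)).toEquiv _ _ fun y => ?_
      obtain ⟨g, hg⟩ := isConj_iff.mp (isConj_aut_apply a y)
      show (χ : G → ℂ) y * _ = (χ : G → ℂ) ((a : MulAut (P : Subgroup G)) y : G) * _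
      rw [twist_apply, map_inv (a : MulAut (P : Subgroup G)), ← hg, Chars.isClassFunction_coe χ]
      rfl
    exact_mod_cast mul_left_cancel₀ hq this
  have himg : (Finset.univ.image fun a : autP P => twist (a : MulAut (P : Subgroup G)) ψ).card =
      Fintype.card (autP P) :=
    Finset.card_image_of_injective _ fun a b h =>
      Subtype.ext (twist_injOn (fpf_autP hfrob) hψ1 a.2 b.2 h)
  rw [Nat.card_eq_fintype_card, ← hdeg, ← himg, Finset.card_eq_sum_ones]
  refine (Finset.sum_le_sum fun φ hφ => ?_).trans
    (Finset.sum_le_sum_of_subset (Finset.subset_univ _))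
  obtain ⟨a, -, rfl⟩ := Finset.mem_image.mp hφ
  rw [hinvar]
  exact hψ

end CfsgLib.TwoGenSolv82
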